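import Mathlib
import Cfsg.Agent.Lib.Helper53.PGroups

/-!
# Tools for S2931: the wreath product `N ≀ C₂` as a semidirect product, and homomorphisms out of it
-/

set_option autoImplicit false

namespace Cfsg.Agent.Lib.Helper6.Syl8

/-- The cyclic group of order `2`. -/
abbrev C2 : Type := Multiplicative (ZMod 2)

/-- The generator of `C2`. -/
def c2g : C2 := Multiplicative.ofAdd 1

theorem c2_cases : ∀ c : C2, c = 1 ∨ c = c2g := by decide

theorem c2g_ne_one : c2g ≠ 1 := by decide

theorem c2g_mul_self : c2g * c2g = 1 := by decide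

/-- The homomorphism from `C2` sending the generator to an involution `t`. -/
def c2Lift {H : Type*} [Group H] (t : H) (ht : t * t = 1) : C2 →* H where
  toFun c := if c = 1 then 1 else t
  map_one' := by simp
  map_mul' := by
    intro a b
    rcases c2_cases a with rfl | rfl <;> rcases c2_cases b with rfl | rfl
    · simp
    · simp [c2g_ne_one]
    · simp [c2g_ne_one]
    · simp [c2g_ne_one, c2g_mul_self, ht]

@[simp] theorem c2Lift_one {H : Type*} [Group H] (t : H) (ht : t * t = 1) :
    c2Lift t ht 1 = 1 := by simp [c2Lift]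

@[simp] theorem c2Lift_g {H : Type*} [Group H] (t : H) (ht : t * t = 1) :
    c2Lift t ht c2g = t := by simp [c2Lift, c2g_ne_one]

/-- The action of `C2` on `N × N` by swapping the factors. -/
def swapHom (N : Type*) [Group N] : C2 →* MulAut (N × N) :=
  c2Lift (MulEquiv.prodComm : (N × N) ≃* (N × N)) (by ext <;> rfl)

/-- The wreath product `N ≀ C₂ = (N × N) ⋊ C₂`. -/
abbrev Wr2 (N : Type*) [Group N] : Type _ := (N × N) ⋊[swapHom N] C2

instance instFintypeWr2 (N : Type*) [Group N] [Fintype N] : Fintype (Wr2 N) :=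
  Fintype.ofEquiv ((N × N) × C2) SemidirectProduct.equivProd.symm

theorem card_wr2 (N : Type*) [Group N] [Finite N] :
    Nat.card (Wr2 N) = Nat.card N * Nat.card N * 2 := by
  rw [Nat.card_congr (SemidirectProduct.equivProd (φ := swapHom N)), Nat.card_prod, Nat.card_prod]
  congr 1
  rw [Nat.card_eq_fintype_card]
  rfl

/-- The homomorphism out of `N ≀ C₂` given by two commuting copies of `N` swapped by an
involution. -/
def wrLift {N H : Type*} [Group N] [Group H] (a b : N →* H) (t : H) (ht : t * t = 1)
    (hcomm : ∀ x y, Commute (a x) (b y)) (hconj : ∀ x, t * a x * t⁻¹ = b x) : Wr2 N →* H :=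
  SemidirectProduct.lift (MonoidHom.noncommCoprod a b hcomm) (c2Lift t ht) (by
    intro g
    have hinv : t⁻¹ = t := inv_eq_of_mul_eq_one_left ht
    have hconj' : ∀ y, t * b y * t⁻¹ = a y := by
      intro y
      rw [← hconj y, hinv]
      calc t * (t * a y * t) * t = (t * t) * a y * (t * t) := by group
        _ = a y := by rw [ht, one_mul, mul_one]
    rcases c2_cases g with rfl | rfl
    · refine MonoidHom.ext fun p => ?_
      simp
    · refine MonoidHom.ext fun p => ?_
      obtain ⟨x, y⟩ := p
      simp only [swapHom, c2Lift_g, MonoidHom.comp_apply, MulEquiv.coe_toMonoidHom,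
        MonoidHom.noncommCoprod_apply, MulAut.conj_apply]
      change a y * b x = t * (a x * b y) * t⁻¹
      rw [(hcomm y x).eq]
      calc b x * a y = (t * a x * t⁻¹) * (t * b y * t⁻¹) := by rw [hconj, hconj']
        _ = t * (a x * b y) * t⁻¹ := by group)

theorem wrLift_apply {N H : Type*} [Group N] [Group H] (a b : N →* H) (t : H) (ht : t * t = 1)
    (hcomm : ∀ x y, Commute (a x) (b y)) (hconj : ∀ x, t * a x * t⁻¹ = b x) (w : Wr2 N) :
    wrLift a b t ht hcomm hconj w = a w.left.1 * b w.left.2 * c2Lift t ht w.right := rfl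

/-- A homomorphism from a finite `2`-group whose centre is `{1, z}` is injective as soon as it does
not kill `z`. -/
theorem injective_of_center {W H : Type*} [Group W] [Finite W] [Group H] (hW : IsPGroup 2 W)
    (z : W) (hz : ∀ w ∈ Subgroup.center W, w = 1 ∨ w = z) (f : W →* H) (hf : f z ≠ 1) :
    Function.Injective f := by
  rw [← MonoidHom.ker_eq_bot_iff]
  by_contra hne
  have : Fact (Nat.Prime 2) := ⟨Nat.prime_two⟩
  obtain ⟨w, hw, hw1, hwc⟩ :=
    Cfsg.Agent.Lib.Helper53.exists_mem_center_of_normal_of_ne_bot hW f.ker hne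
  rcases hz w hwc with h | h
  · exact hw1 h
  · rw [h] at hw
    exact hf (MonoidHom.mem_ker.mp hw)

end Cfsg.Agent.Lib.Helper6.Syl8
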