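import Mathlib
import Cfsg.Prelude.Def_Classical
import Cfsg.Agent.Lib.Helper6.Syl8.Tools
import Cfsg.Agent.Lib.Helper6.Syl8.PartB
import Cfsg.Agent.S4295
import Cfsg.Agent.Lib.Helper44.SpSyl
import Cfsg.Agent.Lib.Helper40.SpSylow
import Cfsg.Agent.Lib.Helper40.SympCenter
import Cfsg.Agent.Lib.Helper40.SympOrder

/-!
# S2931, first half: the Sylow `2`-subgroups of `A₈` and of `PSp₄(3)` are isomorphic

Both are isomorphic to `(Q₈ ≀ C₂)/Z`: `Q₈ ≀ C₂` embeds in `Sp₄(3)` (as `Sp₂(3) ≀ C₂ ∩` Sylow) and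
maps onto a Sylow `2`-subgroup of `A₈` with the same kernel `Z` (an explicit homomorphism found by
machine search, checked here by `decide`).
-/

set_option autoImplicit false

namespace Cfsg.Agent.Lib.Helper6.Syl8

open Matrix

/-- The model group `Q₈ ≀ C₂` of order `128`. -/
abbrev WA : Type := Wr2 (QuaternionGroup 2)

theorem card_WA : Nat.card WA = 128 := by
  rw [card_wr2, Nat.card_eq_fintype_card, QuaternionGroup.card]

/-- The central involution of `Q₈ ≀ C₂`. -/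
def zA : WA := ⟨(QuaternionGroup.a 2, QuaternionGroup.a 2), 1⟩

set_option maxRecDepth 100000 in
theorem center_WA_aux : ∀ w : WA,
    (⟨(QuaternionGroup.a 1, 1), 1⟩ : WA) * w = w * ⟨(QuaternionGroup.a 1, 1), 1⟩ →
    (⟨(QuaternionGroup.xa 0, 1), 1⟩ : WA) * w = w * ⟨(QuaternionGroup.xa 0, 1), 1⟩ →
    (⟨(1, 1), c2g⟩ : WA) * w = w * ⟨(1, 1), c2g⟩ → w = 1 ∨ w = zA := by decide

theorem center_WA (w : WA) (hw : w ∈ Subgroup.center WA) : w = 1 ∨ w = zA :=
  center_WA_aux w (Subgroup.mem_center_iff.mp hw _) (Subgroup.mem_center_iff.mp hw _)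
    (Subgroup.mem_center_iff.mp hw _)

theorem isPGroup_WA : IsPGroup 2 WA :=
  IsPGroup.of_card (n := 7) (by rw [card_WA]; norm_num)

theorem zA_ne_one : zA ≠ 1 := by decide

/-! ### The map onto a Sylow `2`-subgroup of `A₈` -/

def pA : Equiv.Perm (Fin 8) := ⟨![2,3,1,0,6,7,5,4], ![3,2,0,1,7,6,4,5], by decide, by decide⟩
def pX : Equiv.Perm (Fin 8) := ⟨![4,5,7,6,1,0,2,3], ![5,4,6,7,0,1,3,2], by decide, by decide⟩
def pt : Equiv.Perm (Fin 8) := ⟨![0,1,2,3,6,7,4,5], ![0,1,2,3,6,7,4,5], by decide, by decide⟩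

theorem pA_pow : pA ^ 4 = 1 := by decide
theorem pX_sq : pX * pX = pA ^ 2 := by decide
theorem pAX : pA * pX = pX * pA ^ 3 := by decide
theorem pt_sq : pt * pt = 1 := by decide

/-- The first copy of `Q₈` in `A₈`. -/
def aA : QuaternionGroup 2 →* Equiv.Perm (Fin 8) :=
  Cfsg.Agent.S4295.qliftHom pA pX pA_pow pX_sq pAX

theorem aA_comm : ∀ x y : QuaternionGroup 2,
    aA x * (pt * aA y * pt⁻¹) = (pt * aA y * pt⁻¹) * aA x := by decide

/-- The homomorphism `Q₈ ≀ C₂ → S₈`. -/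
def psiA0 : WA →* Equiv.Perm (Fin 8) :=
  wrLift aA ((MulAut.conj pt).toMonoidHom.comp aA) pt pt_sq (fun x y => aA_comm x y)
    (fun _ => rfl)

set_option maxRecDepth 100000 in
theorem psiA0_ker : ∀ w : WA, psiA0 w = 1 → w = 1 ∨ w = zA := by decide

theorem psiA0_zA : psiA0 zA = 1 := by decide

end Cfsg.Agent.Lib.Helper6.Syl8
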