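import Mathlib
import Cfsg.Prelude.Def_Classical
import Cfsg.Agent.Lib.Helper6.Syl8.PartA

/-!
# S2931, first half (continued): `(Q₈ ≀ C₂)/Z` embeds in `A₈` and in `PSp₄(3)`
-/

set_option autoImplicit false

namespace Cfsg.Agent.Lib.Helper6.Syl8

open Matrix Cfsg.Agent.Lib.Helper44

set_option maxRecDepth 100000 in
theorem psiA0_sign : ∀ w : WA, Equiv.Perm.sign (psiA0 w) = 1 := by decide

/-- The homomorphism `Q₈ ≀ C₂ → A₈`. -/
def psiA : WA →* ↥(alternatingGroup (Fin 8)) :=
  psiA0.codRestrict (alternatingGroup (Fin 8))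
    (fun w => Equiv.Perm.mem_alternatingGroup.mpr (psiA0_sign w))

theorem psiA_ker (w : WA) : w ∈ psiA.ker ↔ w = 1 ∨ w = zA := by
  rw [MonoidHom.mem_ker]
  constructor
  · intro h
    apply psiA0_ker
    exact congrArg Subtype.val h
  · rintro (rfl | rfl)
    · exact map_one _
    · apply Subtype.ext
      exact psiA0_zA

theorem card_psiA_ker : Nat.card psiA.ker = 2 := by
  rw [Nat.card_eq_two_iff]
  refine ⟨⟨1, (psiA_ker 1).mpr (Or.inl rfl)⟩, ⟨zA, (psiA_ker zA).mpr (Or.inr rfl)⟩, ?_, ?_⟩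
  · intro h
    exact zA_ne_one (congrArg Subtype.val h).symm
  · ext ⟨w, hw⟩
    simp only [Set.mem_insert_iff, Set.mem_singleton_iff, Set.mem_univ, iff_true]
    rcases (psiA_ker w).mp hw with h | h
    · left; exact Subtype.ext h
    · right; exact Subtype.ext h

/-- The common model of the Sylow `2`-subgroups: `(Q₈ ≀ C₂)/Z`. -/
abbrev TA : Type := WA ⧸ psiA.ker

theorem card_TA : Nat.card TA = 64 := by
  have h := Subgroup.card_eq_card_quotient_mul_card_subgroup psiA.ker
  rw [card_WA, card_psiA_ker] at h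
  show Nat.card (WA ⧸ psiA.ker) = 64
  omega

/-- The embedding of the model in `A₈`. -/
def jA1 : TA →* ↥(alternatingGroup (Fin 8)) := QuotientGroup.kerLift psiA

theorem jA1_injective : Function.Injective jA1 := QuotientGroup.kerLift_injective psiA

theorem card_A8 : Nat.card ↥(alternatingGroup (Fin 8)) = 2 ^ 6 * 315 := by
  have h := two_mul_card_alternatingGroup (α := Fin 8)
  rw [Fintype.card_perm, Fintype.card_fin] at h
  rw [Nat.card_eq_fintype_card]
  have h8 : Nat.factorial 8 = 40320 := by decide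
  omega

section symp

variable {F : Type} [Field F] [Fintype F]

theorem three_eq_zero (hF : Fintype.card F = 3) : (3 : F) = 0 := by
  have h := Nat.cast_card_eq_zero F
  rw [hF] at h
  exact_mod_cast h

theorem two_ne_zero_of_card (hF : Fintype.card F = 3) : (2 : F) ≠ 0 := by
  intro h
  have h3 := three_eq_zero hF
  have : (1 : F) = 0 := by linear_combination h3 - h
  exact one_ne_zero this

theorem hxy (hF : Fintype.card F = 3) : (1 : F) ^ 2 + 1 ^ 2 = -1 := by
  linear_combination three_eq_zero hF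

/-- The second generator of `Q₈ ≤ SL₂(3)`. -/
def nF (hF : Fintype.card F = 3) : SpecialLinearGroup (Fin 2) F := nSL 1 1 (hxy hF)

theorem jn_rel (hF : Fintype.card F = 3) : jSL F * nF hF = nF hF * jSL F ^ 3 := by
  have h := nSL_conj 1 1 (hxy hF) (jSL F) jSL_mem
  have h' : nF hF * jSL F = (jSL F)⁻¹ * nF hF := by
    rw [mul_inv_eq_iff_eq_mul] at h
    exact h
  have h3 : jSL F ^ 3 = (jSL F)⁻¹ := by
    apply eq_inv_of_mul_eq_one_left
    rw [← pow_succ]
    exact jSL_pow F
  rw [h3]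
  calc jSL F * nF hF = jSL F * (nF hF * jSL F) * (jSL F)⁻¹ := by group
    _ = jSL F * ((jSL F)⁻¹ * nF hF) * (jSL F)⁻¹ := by rw [h']
    _ = nF hF * (jSL F)⁻¹ := by group

/-- `Q₈ → SL₂(3)`. -/
def qF (hF : Fintype.card F = 3) : QuaternionGroup 2 →* SpecialLinearGroup (Fin 2) F :=
  Cfsg.Agent.S4295.qliftHom (jSL F) (nF hF) (jSL_pow F)
    (by rw [pow_two]; exact (nSL_sq 1 1 (hxy hF)).symm) (jn_rel hF)

theorem qF_a2 (hF : Fintype.card F = 3) : qF hF (QuaternionGroup.a 2) = jSL F ^ 2 := rfl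

omit [Fintype F] in
theorem jSL_sq_val : ((jSL F ^ 2 : SpecialLinearGroup (Fin 2) F) : Matrix (Fin 2) (Fin 2) F) = -1 := by
  rw [pow_two, Matrix.SpecialLinearGroup.coe_mul]
  show (!![0, -1; 1, 0] : Matrix (Fin 2) (Fin 2) F) * !![0, -1; 1, 0] = -1
  rw [Matrix.mul_fin_two]
  ext i j
  fin_cases i <;> fin_cases j <;> simp

/-- first copy of `Q₈` in `Sp₄(3)` -/
def aS (hF : Fintype.card F = 3) : QuaternionGroup 2 →* ↥(symplecticGroup (Fin 2) F) :=
  (spBase 2 F).comp
    ((MonoidHom.mulSingle (fun _ : Fin 2 => SpecialLinearGroup (Fin 2) F) 0).comp (qF hF))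

/-- second copy of `Q₈` in `Sp₄(3)` -/
def bS (hF : Fintype.card F = 3) : QuaternionGroup 2 →* ↥(symplecticGroup (Fin 2) F) :=
  (spBase 2 F).comp
    ((MonoidHom.mulSingle (fun _ : Fin 2 => SpecialLinearGroup (Fin 2) F) 1).comp (qF hF))

/-- the involution swapping the two hyperbolic planes -/
def tS (F : Type) [Field F] : ↥(symplecticGroup (Fin 2) F) := spPerm 2 F (Equiv.swap 0 1)

omit [Fintype F] in
theorem tS_sq : tS F * tS F = 1 := by
  unfold tS
  rw [← map_mul, Equiv.swap_mul_self, map_one]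

theorem aS_bS_comm (hF : Fintype.card F = 3) (x y : QuaternionGroup 2) :
    Commute (aS hF x) (bS hF y) :=
  (Pi.mulSingle_commute (f := fun _ : Fin 2 => SpecialLinearGroup (Fin 2) F)
    (by decide : (0 : Fin 2) ≠ 1) (qF hF x) (qF hF y)).map (spBase 2 F)

theorem tS_conj (hF : Fintype.card F = 3) (x : QuaternionGroup 2) :
    tS F * aS hF x * (tS F)⁻¹ = bS hF x := by
  show spPerm 2 F (Equiv.swap 0 1) * spBase 2 F (Pi.mulSingle 0 (qF hF x)) *
    (spPerm 2 F (Equiv.swap 0 1))⁻¹ = spBase 2 F (Pi.mulSingle 1 (qF hF x))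
  rw [sp_conj]
  congr 1
  funext i
  fin_cases i
  · simp
  · simp

/-- `Q₈ ≀ C₂ → Sp₄(3)`. -/
def phiA (hF : Fintype.card F = 3) : WA →* ↥(symplecticGroup (Fin 2) F) :=
  wrLift (aS hF) (bS hF) (tS F) tS_sq (aS_bS_comm hF) (tS_conj hF)

theorem phiA_zA (hF : Fintype.card F = 3) :
    ((phiA hF zA : ↥(symplecticGroup (Fin 2) F)) : Matrix (Fin 2 ⊕ Fin 2) (Fin 2 ⊕ Fin 2) F) =
      -1 := by
  have h1 : phiA hF zA = spBase 2 F (fun _ => jSL F ^ 2) := by
    rw [phiA, wrLift_apply]
    show spBase 2 F (Pi.mulSingle 0 (qF hF (QuaternionGroup.a 2))) *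
      spBase 2 F (Pi.mulSingle 1 (qF hF (QuaternionGroup.a 2))) * c2Lift (tS F) tS_sq 1 = _
    rw [c2Lift_one, mul_one, ← map_mul, qF_a2]
    congr 1
    funext i
    fin_cases i
    · simp
    · simp
  rw [h1, spBase_val]
  simp only [jSL_sq_val]
  ext i j
  rcases i with i | i <;> rcases j with j | j <;>
    simp [D4, Matrix.diagonal_apply, Matrix.one_apply] <;>
    by_cases h : i = j <;> simp [h]

theorem phiA_zA_ne (hF : Fintype.card F = 3) : phiA hF zA ≠ 1 := by
  intro h
  have h1 := congrArg (fun g : ↥(symplecticGroup (Fin 2) F) =>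
    (g : Matrix (Fin 2 ⊕ Fin 2) (Fin 2 ⊕ Fin 2) F) (Sum.inl 0) (Sum.inl 0)) h
  simp only [phiA_zA] at h1
  have h2 : (-1 : F) = 1 := by simpa using h1
  apply two_ne_zero_of_card hF
  linear_combination -h2

theorem phiA_injective (hF : Fintype.card F = 3) : Function.Injective (phiA hF) :=
  injective_of_center isPGroup_WA zA center_WA (phiA hF) (phiA_zA_ne hF)

theorem phiA_zA_mem_center (hF : Fintype.card F = 3) :
    phiA hF zA ∈ Subgroup.center ↥(symplecticGroup (Fin 2) F) := by
  rw [Subgroup.mem_center_iff]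
  intro g
  apply Subtype.ext
  rw [Submonoid.coe_mul, Submonoid.coe_mul, phiA_zA]
  simp

theorem center_sp (hF : Fintype.card F = 3) (g : ↥(symplecticGroup (Fin 2) F))
    (hg : g ∈ Subgroup.center ↥(symplecticGroup (Fin 2) F)) : g = 1 ∨ g = phiA hF zA := by
  obtain ⟨a, ha, hga⟩ := Cfsg.Agent.Lib.Helper40.center_scalar 2 (by norm_num) g hg
  have h : a = 1 ∨ a = -1 := by
    have h0 : (a - 1) * (a + 1) = 0 := by linear_combination ha
    rcases mul_eq_zero.mp h0 with h | h
    · left; linear_combination h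
    · right; linear_combination h
  rcases h with rfl | rfl
  · left
    apply Subtype.ext
    rw [hga, one_smul]
    rfl
  · right
    apply Subtype.ext
    rw [hga, phiA_zA]
    simp

/-- The embedding of the model in `PSp₄(3)`. -/
def jA2 (hF : Fintype.card F = 3) : TA →* Cfsg.PSp 2 F :=
  QuotientGroup.lift psiA.ker
    ((QuotientGroup.mk' (Subgroup.center ↥(symplecticGroup (Fin 2) F))).comp (phiA hF)) (by
      intro w hw
      rw [MonoidHom.mem_ker]
      rcases (psiA_ker w).mp hw with rfl | rfl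
      · exact map_one _
      · rw [MonoidHom.comp_apply, QuotientGroup.mk'_apply, QuotientGroup.eq_one_iff]
        exact phiA_zA_mem_center hF)

theorem jA2_injective (hF : Fintype.card F = 3) : Function.Injective (jA2 hF) := by
  rw [injective_iff_map_eq_one]
  intro q
  induction q using QuotientGroup.induction_on with
  | H w =>
    intro h
    have h1 : phiA hF w ∈ Subgroup.center ↥(symplecticGroup (Fin 2) F) := by
      rw [← QuotientGroup.eq_one_iff]
      exact h
    rw [QuotientGroup.eq_one_iff, psiA_ker]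
    rcases center_sp hF _ h1 with h2 | h2
    · left
      apply phiA_injective hF
      rw [h2, map_one]
    · right
      exact phiA_injective hF h2

theorem card_Sp (hF : Fintype.card F = 3) :
    Nat.card ↥(symplecticGroup (Fin 2) F) = 51840 := by
  rw [Cfsg.Agent.Lib.Helper40.card_symplecticGroup, hF]
  simp [Finset.prod_range_succ]

theorem card_PSp (hF : Fintype.card F = 3) : Nat.card (Cfsg.PSp 2 F) = 2 ^ 6 * 405 := by
  have h := Subgroup.card_eq_card_quotient_mul_card_subgroup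
    (Subgroup.center ↥(symplecticGroup (Fin 2) F))
  rw [card_Sp hF, Cfsg.Agent.Lib.Helper40.card_center_symplectic 2 (by norm_num), hF] at h
  have h2 : Nat.gcd 2 (3 - 1) = 2 := by decide
  rw [h2] at h
  show Nat.card (↥(symplecticGroup (Fin 2) F) ⧸ Subgroup.center ↥(symplecticGroup (Fin 2) F)) = _
  omega

/-- **S2931, first half.** -/
theorem partA (hF : Fintype.card F = 3) (P : Sylow 2 ↥(alternatingGroup (Fin 8)))
    (Q : Sylow 2 (Cfsg.PSp 2 F)) :
    Nonempty (↥(P : Subgroup ↥(alternatingGroup (Fin 8))) ≃* ↥(Q : Subgroup (Cfsg.PSp 2 F))) := by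
  have : Fact (Nat.Prime 2) := ⟨Nat.prime_two⟩
  have : Finite (Cfsg.PSp 2 F) := inferInstance
  have hc1 : Nat.card TA = 2 ^ (Nat.card ↥(alternatingGroup (Fin 8))).factorization 2 := by
    rw [card_A8, factorization_two_pow_mul 6 315 (by norm_num), card_TA]
    norm_num
  have hc2 : Nat.card TA = 2 ^ (Nat.card (Cfsg.PSp 2 F)).factorization 2 := by
    rw [card_PSp hF, factorization_two_pow_mul 6 405 (by norm_num), card_TA]
    norm_num
  obtain ⟨e1⟩ := Cfsg.Agent.Lib.Helper40.sylow_equiv_of_injective 2 jA1 jA1_injective hc1 P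
  obtain ⟨e2⟩ := Cfsg.Agent.Lib.Helper40.sylow_equiv_of_injective 2 (jA2 hF) (jA2_injective hF)
    hc2 Q
  exact ⟨e1.trans e2.symm⟩

end symp

end Cfsg.Agent.Lib.Helper6.Syl8
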